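import Mathlib.Algebra.BigOperators.Ring.Finset
import Mathlib.Algebra.Order.BigOperators.Ring.Finset
import Mathlib.Analysis.Complex.ExponentialBounds
import Mathlib.Tactic

/-!
# S4844, piece PS-1a : the arithmetic lemma for odd `p`
-/

set_option autoImplicit false

namespace Cfsg.Agent.H955.PSq

universe u v

open Finset

theorem one_add_sum_le {ι : Type u} (s : Finset ι) (x : ι → ℕ) :
    1 + ∑ b ∈ s, x b ≤ ∏ b ∈ s, (x b + 1) := by
  classical
  induction s using Finset.induction_on with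
  | empty => simp
  | insert b s hb ih =>
    rw [Finset.sum_insert hb, Finset.prod_insert hb]
    nlinarith [Nat.zero_le (x b), Nat.zero_le (∑ b ∈ s, x b)]

theorem two_pts {ι : Type u} [DecidableEq ι] (s : Finset ι) (x : ι → ℕ) {b b' : ι} (hb : b ∈ s) (hb' : b' ∈ s)
    (hne : b ≠ b') (h1 : 0 < x b) (h2 : 0 < x b') :
    1 + ∑ b ∈ s, x b < ∏ b ∈ s, (x b + 1) := by
  have hb'' : b' ∈ s.erase b := Finset.mem_erase.2 ⟨hne.symm, hb'⟩
  rw [← Finset.mul_prod_erase s _ hb, ← Finset.add_sum_erase s _ hb,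
    ← Finset.mul_prod_erase _ _ hb'', ← Finset.add_sum_erase _ _ hb'']
  have h := one_add_sum_le ((s.erase b).erase b') x
  set A := ∑ b ∈ (s.erase b).erase b', x b
  set B := ∏ b ∈ (s.erase b).erase b', (x b + 1)
  have h3 : (x b + 1) * ((x b' + 1) * (1 + A)) ≤ (x b + 1) * ((x b' + 1) * B) :=
    Nat.mul_le_mul_left _ (Nat.mul_le_mul_left _ h)
  have h4 : 0 < x b * x b' := Nat.mul_pos h1 h2
  nlinarith [Nat.zero_le (x b * A), Nat.zero_le (x b' * A), Nat.zero_le (x b * x b' * A)]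

/-- The inequality for the sum and the product. -/
theorem sum_prod_le {κ : Type u} (s : Finset κ) (T : κ → ℝ) (u : ℝ) (hu : 0 < u) (hT : ∀ X ∈ s, u ≤ T X) :
    (u + ∑ X ∈ s, T X) * (2 * u) ^ s.card ≤ (1 + s.card) * u * ∏ X ∈ s, (u + T X) := by
  classical
  induction s using Finset.induction_on with
  | empty => simp
  | insert X s hX ih =>
    have ih' := ih (fun Y hY => hT Y (Finset.mem_insert_of_mem hY))
    have hTX : u ≤ T X := hT X (Finset.mem_insert_self _ _)
    have hA : u * (1 + s.card) ≤ u + ∑ Y ∈ s, T Y := by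
      have : (s.card : ℝ) * u ≤ ∑ Y ∈ s, T Y := by
        have := Finset.card_nsmul_le_sum s T u (fun Y hY => hT Y (Finset.mem_insert_of_mem hY))
        rwa [nsmul_eq_mul] at this
      linarith
    rw [Finset.sum_insert hX, Finset.prod_insert hX, Finset.card_insert_of_notMem hX]
    set A := u + ∑ Y ∈ s, T Y with hAdef
    set B := ∏ Y ∈ s, (u + T Y)
    set j : ℝ := (s.card : ℝ) with hj
    have hj0 : 0 ≤ j := by rw [hj]; positivity
    have hApos : 0 < A := lt_of_lt_of_le (by positivity) hA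
    -- (1+j)(A+T) 2u ≤ (2+j) A (u+T)
    have key : (1 + j) * (A + T X) * (2 * u) ≤ (2 + j) * A * (u + T X) := by
      have e : (2 + j) * A * (u + T X) - (1 + j) * (A + T X) * (2 * u)
          = 2 * u * (A - u * (1 + j)) + (T X - u) * ((2 + j) * A - (1 + j) * (2 * u)) := by ring
      have h2 : 0 ≤ (2 + j) * A - (1 + j) * (2 * u) := by nlinarith
      have h3 : 0 ≤ 2 * u * (A - u * (1 + j)) := by
        apply mul_nonneg (by positivity); linarith
      have h4 : 0 ≤ (T X - u) * ((2 + j) * A - (1 + j) * (2 * u)) := mul_nonneg (by linarith) h2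
      linarith
    have hpos : 0 < 1 + j := by linarith
    have e1 : u + (T X + ∑ Y ∈ s, T Y) = A + T X := by rw [hAdef]; ring
    rw [e1, pow_succ]
    have hP : 0 ≤ (2 * u) ^ s.card := by positivity
    -- multiply
    have s1 : (1 + j) * ((A + T X) * ((2 * u) ^ s.card * (2 * u))) ≤
        (2 + j) * (u + T X) * (A * (2 * u) ^ s.card) := by
      calc (1 + j) * ((A + T X) * ((2 * u) ^ s.card * (2 * u)))
          = ((1 + j) * (A + T X) * (2 * u)) * (2 * u) ^ s.card := by ring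
        _ ≤ ((2 + j) * A * (u + T X)) * (2 * u) ^ s.card := mul_le_mul_of_nonneg_right key hP
        _ = _ := by ring
    have s2 : (2 + j) * (u + T X) * (A * (2 * u) ^ s.card) ≤
        (2 + j) * (u + T X) * ((1 + j) * u * B) :=
      mul_le_mul_of_nonneg_left ih' (by
        have : 0 < u + T X := by linarith
        positivity)
    have s3 : (1 + j) * ((A + T X) * ((2 * u) ^ s.card * (2 * u))) ≤
        (1 + j) * ((1 + (j + 1)) * u * ((u + T X) * B)) := by
      calc _ ≤ _ := s1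
        _ ≤ _ := s2
        _ = _ := by ring
    have s4 := le_of_mul_le_mul_left s3 hpos
    push_cast
    rw [← hj]
    exact s4

/-- The numerical contradiction. -/
theorem numeric {u j : ℕ} {W : ℝ} (hu : 3 ≤ u) (h3 : 3 ≤ j) (hj : j ≤ u + 1) (hW : 256 ≤ W) :
    (1 + (j : ℝ)) * ((u : ℝ) + 1) ^ (j - 1) * W ≤ (W - 1) * 2 ^ j * (u : ℝ) ^ (j - 1) := by
  have hu' : (3 : ℝ) ≤ u := by exact_mod_cast hu
  have hupos : (0 : ℝ) < u := by linarith
  rcases Nat.eq_or_lt_of_le h3 with h | h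
  · subst h
    norm_num
    have e1 : 9 * ((u : ℝ) + 1) ^ 2 ≤ 16 * (u : ℝ) ^ 2 := by nlinarith
    have e2 : 0 ≤ (16 * (u : ℝ) ^ 2 - 9 * ((u : ℝ) + 1) ^ 2) * W :=
      mul_nonneg (by linarith) (by linarith)
    have e3 : (0 : ℝ) ≤ (u : ℝ) ^ 2 * (W - 9) := mul_nonneg (by positivity) (by linarith)
    nlinarith
  · -- `4 ≤ j`
    have hj1 : (2 : ℝ) ^ j * 5 ≥ 16 * (1 + j) := by
      have : ∀ m : ℕ, (2 : ℝ) ^ (m + 4) * 5 ≥ 16 * (1 + ((m + 4 : ℕ) : ℝ)) := by
        intro m
        induction m with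
        | zero => norm_num
        | succ m ih =>
          have : (2 : ℝ) ^ (m + 1 + 4) = 2 * 2 ^ (m + 4) := by ring
          rw [this]
          push_cast at ih ⊢
          nlinarith
      have h4 : j = (j - 4) + 4 := by omega
      rw [h4]
      exact this (j - 4)
    have hr : ((u : ℝ) + 1) ^ (j - 1) ≤ 2.72 * (u : ℝ) ^ (j - 1) := by
      have e1 : ((u : ℝ) + 1) = u * (1 + 1 / u) := by field_simp
      rw [e1, mul_pow]
      have e2 : (1 + 1 / (u : ℝ)) ^ (j - 1) ≤ 2.72 := by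
        have h1 : (1 : ℝ) ≤ 1 + 1 / u := by
          have : (0 : ℝ) < 1 / u := by positivity
          linarith
        have h2 : (1 + 1 / (u : ℝ)) ≤ Real.exp (1 / u) := by
          have := Real.add_one_le_exp (1 / (u : ℝ))
          linarith
        calc (1 + 1 / (u : ℝ)) ^ (j - 1) ≤ (1 + 1 / (u : ℝ)) ^ u := pow_le_pow_right₀ h1 (by omega)
          _ ≤ (Real.exp (1 / u)) ^ u := pow_le_pow_left₀ (by linarith) h2 _
          _ = Real.exp 1 := by
            rw [← Real.exp_nat_mul]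
            congr 1
            field_simp
          _ ≤ 2.72 := by
            have := Real.exp_one_lt_d9
            linarith
      have : (0 : ℝ) ≤ (u : ℝ) ^ (j - 1) := by positivity
      nlinarith
    have hU : (0 : ℝ) < (u : ℝ) ^ (j - 1) := by positivity
    have hJ : (0 : ℝ) ≤ 1 + (j : ℝ) := by positivity
    have s1 : (1 + (j : ℝ)) * ((u : ℝ) + 1) ^ (j - 1) * W ≤ (1 + (j : ℝ)) * (2.72 * (u : ℝ) ^ (j - 1)) * W :=
      mul_le_mul_of_nonneg_right (mul_le_mul_of_nonneg_left hr hJ) (by linarith)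
    have s2 : (1 + (j : ℝ)) * 2.72 * W ≤ (W - 1) * 2 ^ j := by
      have h5 : (1 + (j : ℝ)) ≤ 2 ^ j * 5 / 16 := by linarith
      have h6 : (0 : ℝ) < 2 ^ j := by positivity
      have h7 : (1 + (j : ℝ)) * 2.72 * W ≤ (2 ^ j * 5 / 16) * 2.72 * W := by
        apply mul_le_mul_of_nonneg_right _ (by linarith)
        apply mul_le_mul_of_nonneg_right h5 (by norm_num)
      have h8 : (2 ^ j * 5 / 16) * 2.72 * W ≤ (W - 1) * 2 ^ j := by
        have : (W - 1) * 2 ^ j - (2 ^ j * 5 / 16) * 2.72 * W = 2 ^ j * (0.15 * W - 1) := by ring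
        have h9 : (0 : ℝ) ≤ 2 ^ j * (0.15 * W - 1) := mul_nonneg h6.le (by linarith)
        linarith
      linarith
    calc (1 + (j : ℝ)) * ((u : ℝ) + 1) ^ (j - 1) * W ≤ _ := s1
      _ = ((1 + (j : ℝ)) * 2.72 * W) * (u : ℝ) ^ (j - 1) := by ring
      _ ≤ ((W - 1) * 2 ^ j) * (u : ℝ) ^ (j - 1) := mul_le_mul_of_nonneg_right s2 hU.le
      _ = _ := by ring

open Classical in
/-- Piece PS-1a of S4844.  (The index types are nonempty; they have `p + 1` and `p ^ 2` elements in the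
application.) -/
theorem arith_odd {ι κ : Type u} [Fintype ι] [Fintype κ] [Nonempty ι] [Nonempty κ] {p : ℕ} (hp : 3 ≤ p)
    (hκ : Fintype.card κ ≤ p + 1) (rel : κ → ι → ι → Prop) (he : ∀ X, Equivalence (rel X))
    (hu : ∀ a b, a ≠ b → ∃! X, rel X a b) (w : ι → ℕ) (hw : ∀ a, w a = 1 ∨ p + 1 ≤ w a) (c : κ → ℕ) (n : ℕ)
    (hL : ∀ X a, ∏ b with rel X a b, w b = 1 + c X * ∑ b with rel X a b, (w b - 1))
    (hT : ∏ b, w b = 1 + n * ∑ b, (w b - 1)) (hn : n ≤ ∏ X, c X)
    (hnc : ∀ X a, ∃ b, w b ≠ 1 ∧ ¬ rel X a b) : False := by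
  -- the minimal point
  obtain ⟨x, hx⟩ : ∃ x : ι → ℕ, ∀ b, w b = x b + 1 := ⟨fun b => w b - 1, fun b => by
    show w b = (w b - 1) + 1
    rcases hw b with h | h <;> omega⟩
  obtain rfl : w = fun b => x b + 1 := funext hx
  simp only [Nat.add_sub_cancel] at *
  have hx0 : ∀ b, x b = 0 ∨ p ≤ x b := fun b => by rcases hw b with h | h <;> omega
  have hex : ∃ a, x a ≠ 0 := by
    obtain ⟨X⟩ := ‹Nonempty κ›
    obtain ⟨a⟩ := ‹Nonempty ι›
    obtain ⟨b, hb, -⟩ := hnc X a
    exact ⟨b, by omega⟩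
  obtain ⟨a, ha, hmin⟩ : ∃ a, x a ≠ 0 ∧ ∀ b, x b ≠ 0 → x a ≤ x b := by
    have hne : (Finset.univ.filter (fun b => x b ≠ 0)).Nonempty := by
      obtain ⟨a, ha⟩ := hex
      exact ⟨a, by simp [ha]⟩
    obtain ⟨a, ha, h⟩ := Finset.exists_min_image _ x hne
    refine ⟨a, (Finset.mem_filter.1 ha).2, fun b hb => h b (by simp [hb])⟩
  obtain ⟨u, hxu⟩ : ∃ u, x a = u := ⟨_, rfl⟩
  rw [hxu] at ha hmin
  have hpu : p ≤ u := by rcases hx0 a with h | h <;> omega
  have hu3 : 3 ≤ u := hp.trans hpu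
  -- lines through `a`
  let L : κ → Finset ι := fun X => (Finset.univ.erase a).filter (fun b => rel X a b)
  have hLmem : ∀ X b, b ∈ L X ↔ b ≠ a ∧ rel X a b := fun X b => by simp [L]
  have hfull : ∀ X, (Finset.univ.filter (fun b => rel X a b)) = insert a (L X) := by
    intro X
    ext b
    simp only [Finset.mem_filter, Finset.mem_univ, true_and, Finset.mem_insert, hLmem]
    constructor
    · intro h
      by_cases hb : b = a
      · exact Or.inl hb
      · exact Or.inr ⟨hb, h⟩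
    · rintro (rfl | ⟨-, h⟩)
      · exact (he X).refl _
      · exact h
  have haL : ∀ X, a ∉ L X := fun X h => ((hLmem X a).1 h).1 rfl
  let P : κ → ℕ := fun X => ∏ b ∈ L X, (x b + 1)
  let T : κ → ℕ := fun X => ∑ b ∈ L X, x b
  have hLa : ∀ X, (u + 1) * P X = 1 + c X * (u + T X) := by
    intro X
    have := hL X a
    rw [hfull, Finset.prod_insert (haL X), Finset.sum_insert (haL X), hxu] at this
    exact this
  -- the total
  have hdec : ∀ b ∈ (Finset.univ.erase a : Finset ι), ∃ X, rel X a b ∧ ∀ Y, rel Y a b → Y = X := by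
    intro b hb
    obtain ⟨X, h1, h2⟩ := hu a b (Finset.ne_of_mem_erase hb).symm
    exact ⟨X, h1, h2⟩
  obtain ⟨X₀⟩ := ‹Nonempty κ›
  let d : ι → κ := fun b => if h : b ∈ (Finset.univ.erase a : Finset ι) then (hdec b h).choose else X₀
  have hd : ∀ b ∈ (Finset.univ.erase a : Finset ι), ∀ X, d b = X ↔ rel X a b := by
    intro b hb X
    have e : d b = (hdec b hb).choose := by simp only [d, dif_pos hb]
    rw [e]
    have hs := (hdec b hb).choose_spec
    exact ⟨fun h => h ▸ hs.1, fun h => (hs.2 X h).symm⟩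
  have hLd : ∀ X, L X = (Finset.univ.erase a).filter (fun b => d b = X) := by
    intro X
    ext b
    simp only [L, Finset.mem_filter]
    constructor
    · rintro ⟨h1, h2⟩
      exact ⟨h1, (hd b h1 X).2 h2⟩
    · rintro ⟨h1, h2⟩
      exact ⟨h1, (hd b h1 X).1 h2⟩
  have hprod : ∏ b, (x b + 1) = (u + 1) * ∏ X, P X := by
    rw [← Finset.mul_prod_erase Finset.univ (fun b => x b + 1) (Finset.mem_univ a), hxu,
      ← Finset.prod_fiberwise (Finset.univ.erase a) d]
    congr 1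
    refine Finset.prod_congr rfl fun X _ => ?_
    simp only [P, hLd X]
  have hsum : ∑ b, x b = u + ∑ X, T X := by
    rw [← Finset.add_sum_erase Finset.univ x (Finset.mem_univ a), hxu,
      ← Finset.sum_fiberwise (Finset.univ.erase a) d]
    congr 1
    refine Finset.sum_congr rfl fun X _ => ?_
    simp only [T, hLd X]
  -- the directions
  let D : Finset κ := Finset.univ.filter (fun X => T X ≠ 0)
  have hDmem : ∀ X, X ∈ D ↔ T X ≠ 0 := fun X => by simp [D]
  have hT0 : ∀ X, T X = 0 → P X = 1 := by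
    intro X h
    have h' : ∀ b ∈ L X, x b = 0 := by
      intro b hb
      exact (Finset.sum_eq_zero_iff.1 h) b hb
    exact Finset.prod_eq_one fun b hb => by rw [h' b hb, zero_add]
  have hc1 : ∀ X, T X = 0 → c X = 1 := by
    intro X h
    have h1 := hLa X
    rw [hT0 X h, h] at h1
    have h2 : c X * u = 1 * u := by
      rw [add_zero] at h1
      omega
    exact Nat.eq_of_mul_eq_mul_right (by omega) h2
  have hTu : ∀ X ∈ D, u ≤ T X := by
    intro X hX
    have h1 := (hDmem X).1 hX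
    obtain ⟨b, hb, hb0⟩ := Finset.exists_ne_zero_of_sum_ne_zero h1
    exact (hmin b hb0).trans (Finset.single_le_sum (f := x) (fun i _ => Nat.zero_le _) hb)
  -- two points of the support on a line of direction `X`
  have htwo : ∀ X b b', b ≠ b' → x b ≠ 0 → x b' ≠ 0 → rel X b b' → X ∈ D := by
    intro X b b' hne hb hb' hr
    rw [hDmem]
    intro h
    have h1 := hL X b
    rw [hc1 X h, one_mul] at h1
    have h2 := two_pts (Finset.univ.filter (fun b'' => rel X b b'')) x (b := b) (b' := b')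
      (by simp [(he X).refl b]) (by simp [hr]) hne (by omega) (by omega)
    omega
  have hDa : ∀ X b, b ≠ a → x b ≠ 0 → rel X a b → X ∈ D := fun X b hne hb hr =>
    htwo X a b hne.symm (by rw [hxu]; exact ha) hb hr
  -- three directions
  have hj3 : 3 ≤ D.card := by
    obtain ⟨b, hb, hXb⟩ := hnc X₀ a
    have hb0 : x b ≠ 0 := by omega
    have hba : b ≠ a := fun h => hXb (h ▸ (he X₀).refl _)
    obtain ⟨Y, hY, hYu⟩ := hu a b hba.symm
    obtain ⟨b', hb', hYb'⟩ := hnc Y a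
    have hb0' : x b' ≠ 0 := by omega
    have hba' : b' ≠ a := fun h => hYb' (h ▸ (he Y).refl _)
    obtain ⟨Y', hY', hYu'⟩ := hu a b' hba'.symm
    have hbb' : b ≠ b' := fun h => hYb' (h ▸ hY)
    obtain ⟨Z, hZ, hZu⟩ := hu b b' hbb'
    have n1 : Y ≠ Y' := fun h => hYb' (h ▸ hY')
    have n2 : Y ≠ Z := by
      rintro rfl
      exact hYb' ((he Y).trans hY hZ)
    have n3 : Y' ≠ Z := by
      rintro rfl
      have : rel Y' a b := (he Y').trans hY' ((he Y').symm hZ)
      exact n1 (hYu Y' this).symm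
    have h1 : Y ∈ D := hDa Y b hba hb0 hY
    have h2 : Y' ∈ D := hDa Y' b' hba' hb0' hY'
    have h3 : Z ∈ D := htwo Z b b' hbb' hb0 hb0' hZ
    have hsub : ({Y, Y', Z} : Finset κ) ⊆ D := by
      intro X hX
      simp only [Finset.mem_insert, Finset.mem_singleton] at hX
      rcases hX with rfl | rfl | rfl
      · exact h1
      · exact h2
      · exact h3
    calc 3 = ({Y, Y', Z} : Finset κ).card := (Finset.card_eq_three.2 ⟨Y, Y', Z, n1, n2, n3, rfl⟩).symm
      _ ≤ D.card := Finset.card_le_card hsub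
  have hju : D.card ≤ u + 1 := (Finset.card_le_univ D).trans (hκ.trans (by omega))
  -- restrict all products to `D`
  have hPD : ∏ X, P X = ∏ X ∈ D, P X := by
    symm
    refine Finset.prod_subset (Finset.subset_univ _) fun X _ hX => ?_
    rw [hDmem, not_not] at hX
    exact hT0 X hX
  have hcD : ∏ X, c X = ∏ X ∈ D, c X := by
    symm
    refine Finset.prod_subset (Finset.subset_univ _) fun X _ hX => ?_
    rw [hDmem, not_not] at hX
    exact hc1 X hX
  have hTD : ∑ X, T X = ∑ X ∈ D, T X := by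
    symm
    refine Finset.sum_subset (Finset.subset_univ _) fun X _ hX => ?_
    rw [hDmem, not_not] at hX
    exact hX
  have hT' : (u + 1) * ∏ X ∈ D, P X = 1 + n * (u + ∑ X ∈ D, T X) := by
    have h1 := hT
    rw [hprod, hsum, hPD, hTD] at h1
    exact h1
  have hn' : n ≤ ∏ X ∈ D, c X := hcD ▸ hn
  have hPge : ∀ X ∈ D, 4 ≤ P X := by
    intro X hX
    have h1 := one_add_sum_le (L X) x
    have h2 : u ≤ T X := hTu X hX
    change 1 + T X ≤ P X at h1
    omega
  -- pass to the reals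
  set j := D.card with hjdef
  have hur : (0 : ℝ) < u := by exact_mod_cast (by omega : 0 < u)
  set Pr : ℝ := ∏ X ∈ D, (P X : ℝ) with hPr
  set A : ℝ := (u : ℝ) + ∑ X ∈ D, (T X : ℝ) with hA
  set B : ℝ := ∏ X ∈ D, ((u : ℝ) + T X) with hB
  have hApos : 0 < A := by
    have : (0 : ℝ) ≤ ∑ X ∈ D, (T X : ℝ) := Finset.sum_nonneg fun X _ => Nat.cast_nonneg _
    rw [hA]; linarith
  have hBpos : 0 < B := Finset.prod_pos fun X _ => by positivity
  have hPpos : 0 < Pr := Finset.prod_pos fun X hX => by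
    have : 0 < P X := by have := hPge X hX; omega
    exact_mod_cast this
  -- the total equation
  have R1 : ((u : ℝ) + 1) * Pr = 1 + n * A := by
    have := congrArg (Nat.cast : ℕ → ℝ) hT'
    push_cast at this
    exact this
  -- the inequality
  have R2 : (n : ℝ) * B < ((u : ℝ) + 1) ^ j * Pr := by
    have h1 : (n : ℝ) ≤ ∏ X ∈ D, (c X : ℝ) := by
      have : ((n : ℕ) : ℝ) ≤ ((∏ X ∈ D, c X : ℕ) : ℝ) := Nat.cast_le.2 hn'
      push_cast at this
      exact this
    have h2 : (n : ℝ) * B ≤ ∏ X ∈ D, ((c X : ℝ) * ((u : ℝ) + T X)) := by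
      rw [Finset.prod_mul_distrib]
      exact mul_le_mul_of_nonneg_right h1 hBpos.le
    refine lt_of_le_of_lt h2 ?_
    have h3 : ((u : ℝ) + 1) ^ j * Pr = ∏ X ∈ D, (((u : ℝ) + 1) * (P X : ℝ)) := by
      rw [Finset.prod_mul_distrib, Finset.prod_const]
    rw [h3]
    have hDne : D.Nonempty := Finset.card_pos.1 (by omega)
    refine Finset.prod_lt_prod_of_nonempty ?_ ?_ hDne
    · intro X hX
      have e := congrArg (Nat.cast : ℕ → ℝ) (hLa X)
      push_cast at e
      have hP4 : (4 : ℝ) ≤ P X := by exact_mod_cast hPge X hX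
      nlinarith
    · intro X hX
      have e := congrArg (Nat.cast : ℕ → ℝ) (hLa X)
      push_cast at e
      linarith
  have R3 := sum_prod_le D (fun X => (T X : ℝ)) u hur (fun X hX => by exact_mod_cast hTu X hX)
  rw [← hjdef] at R3
  change A * (2 * (u : ℝ)) ^ j ≤ (1 + (j : ℝ)) * u * B at R3
  have hW : (256 : ℝ) ≤ ((u : ℝ) + 1) * Pr := by
    have h1 : (4 : ℝ) ^ j ≤ Pr := by
      have : ∏ X ∈ D, (4 : ℝ) ≤ Pr := Finset.prod_le_prod (fun _ _ => by norm_num)
        (fun X hX => by exact_mod_cast hPge X hX)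
      rwa [Finset.prod_const] at this
    have h2 : (4 : ℝ) ^ 3 ≤ (4 : ℝ) ^ j := pow_le_pow_right₀ (by norm_num) hj3
    have h3 : (3 : ℝ) ≤ u := by exact_mod_cast hu3
    nlinarith
  have R4 := numeric (W := ((u : ℝ) + 1) * Pr) hu3 hj3 hju hW
  -- combine
  set W : ℝ := ((u : ℝ) + 1) * Pr with hWdef
  have hjp : j = (j - 1) + 1 := by omega
  have C1 : (W - 1) * B < A * (((u : ℝ) + 1) ^ (j - 1) * W) := by
    have e1 : W - 1 = n * A := by rw [R1]; ring
    have e2 : ((u : ℝ) + 1) ^ j * Pr = ((u : ℝ) + 1) ^ (j - 1) * W := by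
      have e0 : ((u : ℝ) + 1) ^ j = ((u : ℝ) + 1) ^ (j - 1) * ((u : ℝ) + 1) := by
        rw [← pow_succ, ← hjp]
      rw [hWdef, e0, mul_assoc]
    rw [e1]
    calc (n : ℝ) * A * B = A * (n * B) := by ring
      _ < A * (((u : ℝ) + 1) ^ j * Pr) := mul_lt_mul_of_pos_left R2 hApos
      _ = _ := by rw [e2]
  have C2 : (W - 1) * (A * (2 * (u : ℝ)) ^ j) ≤ (W - 1) * ((1 + (j : ℝ)) * u * B) :=
    mul_le_mul_of_nonneg_left R3 (by linarith)
  have hju0 : 0 < (1 + (j : ℝ)) * u := mul_pos (by have := Nat.cast_nonneg (α := ℝ) j; linarith) hur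
  have C3 : (1 + (j : ℝ)) * u * ((W - 1) * B) < (1 + (j : ℝ)) * u * (A * (((u : ℝ) + 1) ^ (j - 1) * W)) :=
    mul_lt_mul_of_pos_left C1 hju0
  have C4 : (A * u) * ((1 + (j : ℝ)) * ((u : ℝ) + 1) ^ (j - 1) * W) ≤ (A * u) * ((W - 1) * 2 ^ j * (u : ℝ) ^ (j - 1)) :=
    mul_le_mul_of_nonneg_left R4 (mul_pos hApos hur).le
  have e3 : (W - 1) * (A * (2 * (u : ℝ)) ^ j) = (A * u) * ((W - 1) * 2 ^ j * (u : ℝ) ^ (j - 1)) := by
    rw [mul_pow]
    have : (u : ℝ) ^ j = (u : ℝ) ^ (j - 1) * u := by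
      rw [← pow_succ, ← hjp]
    rw [this]; ring
  have e4 : (1 + (j : ℝ)) * u * (A * (((u : ℝ) + 1) ^ (j - 1) * W)) =
      (A * u) * ((1 + (j : ℝ)) * ((u : ℝ) + 1) ^ (j - 1) * W) := by ring
  have e5 : (W - 1) * ((1 + (j : ℝ)) * u * B) = (1 + (j : ℝ)) * u * ((W - 1) * B) := by ring
  linarith

end Cfsg.Agent.H955.PSq
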